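import Mathlib

/-!
# Composition length through subnormal chains
-/

set_option autoImplicit false

namespace Cfsg.Agent.CLen

open Subgroup ArithmeticFunction

variable {G G' : Type*} [Group G] [Group G']

/-- A chain `A = H₀ < H₁ < ⋯ < H_l = B` with each term normal in the next. -/
inductive Ch (A : Subgroup G) : Subgroup G → ℕ → Prop
  | refl : Ch A A 0
  | step {B C : Subgroup G} {l : ℕ} : Ch A B l → B < C → (∀ c ∈ C, ∀ b ∈ B, c * b * c⁻¹ ∈ B) →
      Ch A C (l + 1)

theorem Ch.le {A B : Subgroup G} {l : ℕ} (h : Ch A B l) : A ≤ B := by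
  induction h with
  | refl => exact le_rfl
  | step _ hlt _ ih => exact ih.trans hlt.le

theorem Ch.trans {A B C : Subgroup G} {l m : ℕ} (h : Ch A B l) (h' : Ch B C m) :
    Ch A C (l + m) := by
  induction h' with
  | refl => exact h
  | step _ hlt hn ih => exact ih.step hlt hn

theorem Ch.step' {A B C : Subgroup G} {l : ℕ} (h : Ch A B l) (hle : B ≤ C)
    (hn : ∀ c ∈ C, ∀ b ∈ B, c * b * c⁻¹ ∈ B) : ∃ m, l ≤ m ∧ (B ≠ C → l < m) ∧ Ch A C m := by
  by_cases e : B = C
  · subst e; exact ⟨l, le_rfl, fun h => (h rfl).elim, h⟩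
  · exact ⟨l + 1, by omega, fun _ => by omega, h.step (lt_of_le_of_ne hle e) hn⟩

theorem omega_lt [Finite G] {B C : Subgroup G} (h : B < C) :
    cardFactors (Nat.card B) < cardFactors (Nat.card C) := by
  obtain ⟨k, hk⟩ := card_dvd_of_le h.le
  have h0 : Nat.card B ≠ 0 := Nat.card_pos.ne'
  have hk0 : k ≠ 0 := by rintro rfl; exact (Nat.card_pos (α := C)).ne' (by simpa using hk)
  have hk1 : k ≠ 1 := by
    rintro rfl
    exact h.ne (eq_of_le_of_card_ge h.le (by omega))
  rw [hk, cardFactors_mul h0 hk0]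
  have := cardFactors_pos_iff_one_lt.2 (show 1 < k by omega)
  omega

theorem Ch.omega [Finite G] {A B : Subgroup G} {l : ℕ} (h : Ch A B l) :
    cardFactors (Nat.card A) + l ≤ cardFactors (Nat.card B) := by
  induction h with
  | refl => exact le_rfl
  | step _ hlt _ ih => have := omega_lt hlt; omega

theorem Ch.split {A B : Subgroup G} {l : ℕ} (h : Ch A B l) (f : G →* G') :
    ∃ l₁ l₂, l ≤ l₁ + l₂ ∧ Ch (A ⊓ f.ker) (B ⊓ f.ker) l₁ ∧ Ch (A.map f) (B.map f) l₂ := by
  induction h with
  | refl => exact ⟨0, 0, le_rfl, .refl, .refl⟩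
  | @step B C l _ hlt hn ih =>
    obtain ⟨l₁, l₂, hl, h₁, h₂⟩ := ih
    obtain ⟨m₁, a₁, b₁, c₁⟩ := h₁.step' (C := C ⊓ f.ker) (inf_le_inf_right _ hlt.le)
      fun c hc b hb => ⟨hn c hc.1 b hb.1, (f.normal_ker).conj_mem _ hb.2 c⟩
    obtain ⟨m₂, a₂, b₂, c₂⟩ := h₂.step' (C := C.map f) (map_mono hlt.le) (by
      rintro _ ⟨c, hc, rfl⟩ _ ⟨b, hb, rfl⟩
      exact ⟨c * b * c⁻¹, hn c hc b hb, by simp⟩)
    refine ⟨m₁, m₂, ?_, c₁, c₂⟩
    by_cases e₁ : B ⊓ f.ker = C ⊓ f.ker
    · by_cases e₂ : B.map f = C.map f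
      · exfalso
        refine hlt.ne (le_antisymm hlt.le fun c hc => ?_)
        obtain ⟨b, hb, e⟩ : f c ∈ B.map f := e₂ ▸ mem_map_of_mem f hc
        have : b⁻¹ * c ∈ B ⊓ f.ker :=
          e₁ ▸ ⟨C.mul_mem (C.inv_mem (hlt.le hb)) hc, by simp [MonoidHom.mem_ker, e]⟩
        simpa using B.mul_mem hb this.1
      · have := b₂ e₂; omega
    · have := b₁ e₁; omega

theorem Ch.pull {A B : Subgroup G'} {l : ℕ} (h : Ch A B l) (f : G →* G') (H : Subgroup G)
    (hB : B ≤ H.map f) : Ch (A.comap f ⊓ H) (B.comap f ⊓ H) l := by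
  induction h with
  | refl => exact .refl
  | @step B C l _ hlt hn ih =>
    refine (ih (hlt.le.trans hB)).step (lt_of_le_of_ne (inf_le_inf_right _ (comap_mono hlt.le))
      fun e => hlt.ne (le_antisymm hlt.le fun c hc => ?_)) fun c hc b hb => ⟨?_, ?_⟩
    · obtain ⟨x, hx, rfl⟩ := hB hc
      have : x ∈ comap f B ⊓ H := e ▸ ⟨hc, hx⟩
      exact this.1
    · simpa using hn _ hc.1 _ hb.1
    · exact H.mul_mem (H.mul_mem hc.2 hb.2) (H.inv_mem hc.2)

/-- The composition length of a subgroup. -/
noncomputable def cl (H : Subgroup G) : ℕ := sSup {l | Ch ⊥ H l}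

theorem bdd [Finite G] (H : Subgroup G) : BddAbove {l | Ch ⊥ H l} :=
  ⟨cardFactors (Nat.card H), fun _ hl => by have := Ch.omega hl; omega⟩

theorem Ch.le_cl [Finite G] {H : Subgroup G} {l : ℕ} (h : Ch ⊥ H l) : l ≤ cl H :=
  le_csSup (bdd H) h

theorem ch_cl [Finite G] (H : Subgroup G) : Ch ⊥ H (cl H) := by
  refine Nat.sSup_mem (s := {l | Ch ⊥ H l}) ?_ (bdd H)
  obtain ⟨m, -, -, h⟩ := (Ch.refl (A := (⊥ : Subgroup G))).step' (C := H) bot_le (by simp)
  exact ⟨m, h⟩

theorem cl_le_omega [Finite G] (H : Subgroup G) : cl H ≤ cardFactors (Nat.card H) := by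
  have := (ch_cl H).omega; omega

@[simp] theorem cl_bot [Finite G] : cl (⊥ : Subgroup G) = 0 := by
  have := cl_le_omega (⊥ : Subgroup G); simpa using this

theorem one_le_cl [Finite G] {H : Subgroup G} (h : H ≠ ⊥) : 1 ≤ cl H :=
  ((Ch.refl (A := (⊥ : Subgroup G))).step (bot_lt_iff_ne_bot.2 h) (by simp)).le_cl

theorem cl_eq_add [Finite G] [Finite G'] (f : G →* G') (H : Subgroup G) :
    cl H = cl (H ⊓ f.ker) + cl (H.map f) := by
  apply le_antisymm
  · obtain ⟨l₁, l₂, hl, h₁, h₂⟩ := (ch_cl H).split f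
    rw [bot_inf_eq] at h₁; rw [Subgroup.map_bot] at h₂
    have := h₁.le_cl; have := h₂.le_cl; omega
  · have h := (ch_cl (H.map f)).pull f H le_rfl
    rw [MonoidHom.comap_bot, inf_comm, inf_eq_right.2 (le_comap_map f H)] at h
    exact ((ch_cl _).trans h).le_cl

theorem cl_map [Finite G] [Finite G'] (f : G →* G') (hf : Function.Injective f) (H : Subgroup G) :
    cl (H.map f) = cl H := by
  rw [cl_eq_add f H, (MonoidHom.ker_eq_bot_iff f).2 hf]; simp

theorem cl_top_subgroup [Finite G] (H : Subgroup G) : cl (⊤ : Subgroup H) = cl H := by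
  rw [← cl_map H.subtype H.subtype_injective, ← MonoidHom.range_eq_map, range_subtype]

theorem cl_subgroupOf [Finite G] {H K : Subgroup G} (h : H ≤ K) : cl (H.subgroupOf K) = cl H := by
  rw [← cl_map K.subtype K.subtype_injective, subgroupOf_map_subtype, inf_eq_left.2 h]

theorem cl_simple [Finite G] [IsSimpleGroup G] (H : Subgroup G) [hH : H.Normal] : cl H ≤ 1 := by
  rcases hH.eq_bot_or_eq_top with rfl | rfl
  · simp
  · have h := ch_cl (⊤ : Subgroup G)
    generalize cl (⊤ : Subgroup G) = l at h ⊢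
    generalize e : (⊤ : Subgroup G) = T at h
    cases h with
    | refl => omega
    | @step B _ l h hlt hn =>
      subst e
      have hB : B.Normal := ⟨fun b hb c => hn c trivial b hb⟩
      rcases hB.eq_bot_or_eq_top with rfl | rfl
      · have := h.le_cl; simp at this; omega
      · exact (hlt.ne rfl).elim

/-- Upper bound from surjections onto a simple group. -/
theorem cl_le_card [Finite G] {T ι : Type*} [Group T] [Finite T] [IsSimpleGroup T]
    (f : ι → G →* T) (hf : ∀ i, Function.Surjective (f i)) (s : Finset ι) :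
    ∀ H : Subgroup G, H.Normal → (∀ x ∈ H, (∀ i ∈ s, f i x = 1) → x = 1) → cl H ≤ s.card := by
  classical
  induction s using Finset.induction_on with
  | empty =>
    intro H _ h
    have : H = ⊥ := (eq_bot_iff_forall H).2 fun x hx => h x hx (by simp)
    simp [this]
  | insert i s hi ih =>
    intro H hH h
    rw [cl_eq_add (f i) H, Finset.card_insert_of_notMem hi]
    haveI := hH.map (f i) (hf i)
    have h1 := cl_simple (H.map (f i))
    have h2 := ih (H ⊓ (f i).ker) inferInstance fun x hx hs =>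
      h x hx.1 fun j hj => by
        rcases Finset.mem_insert.1 hj with rfl | hj
        · exact hx.2
        · exact hs j hj
    omega

/-- Lower bound from a triangular family of elements. -/
theorem card_le_cl [Finite G] {T ι : Type*} [Group T] [Finite T] (f : ι → G →* T)
    (s : Finset ι) : ∀ H : Subgroup G,
      (∀ i ∈ s, ∃ x ∈ H, f i x ≠ 1 ∧ ∀ j ∈ s, j ≠ i → f j x = 1) → s.card ≤ cl H := by
  classical
  induction s using Finset.induction_on with
  | empty => simp
  | insert i s hi ih =>
    intro H h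
    rw [cl_eq_add (f i) H, Finset.card_insert_of_notMem hi]
    have h1 : 1 ≤ cl (H.map (f i)) := by
      obtain ⟨x, hx, h1, -⟩ := h i (Finset.mem_insert_self _ _)
      exact one_le_cl fun e => h1 (by simpa [e] using mem_map_of_mem (f i) hx)
    have h2 := ih (H ⊓ (f i).ker) fun j hj => by
      obtain ⟨x, hx, h1, h2⟩ := h j (Finset.mem_insert_of_mem hj)
      exact ⟨x, ⟨hx, h2 i (Finset.mem_insert_self _ _) (by rintro rfl; exact hi hj)⟩, h1,
        fun k hk hkj => h2 k (Finset.mem_insert_of_mem hk) hkj⟩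
    omega

theorem le_cl_of_chain [Finite G] (l : ℕ) (H : Fin (l + 1) → Subgroup G) (h0 : H 0 = ⊥)
    (hchain : ∀ i : Fin l, H i.castSucc < H i.succ ∧
      ((H i.castSucc).subgroupOf (H i.succ)).Normal) : l ≤ cl (H (Fin.last l)) := by
  have key : ∀ i : Fin (l + 1), Ch ⊥ (H i) i := by
    intro i
    induction i using Fin.induction with
    | zero => rw [h0]; exact .refl
    | succ i ih =>
      refine Ch.step (B := H i.castSucc) (by simpa using ih) (hchain i).1 fun c hc b hb => ?_
      have := (hchain i).2.conj_mem ⟨b, (hchain i).1.le hb⟩ hb ⟨c, hc⟩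
      exact this
  simpa using (key (Fin.last l)).le_cl

theorem omega_le_log {n : ℕ} (hn : n ≠ 0) : cardFactors n ≤ Nat.log 2 n := by
  induction n using Nat.recOnMul with
  | zero => exact (hn rfl).elim
  | one => simp
  | prime p hp =>
    rw [cardFactors_apply_prime hp]
    exact Nat.log_pos (by norm_num) hp.two_le
  | mul a b iha ihb =>
    have ha : a ≠ 0 := by rintro rfl; simp at hn
    have hb : b ≠ 0 := by rintro rfl; simp at hn
    rw [cardFactors_mul ha hb]
    have := iha ha; have := ihb hb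
    have : Nat.log 2 a + Nat.log 2 b ≤ Nat.log 2 (a * b) := by
      refine Nat.le_log_of_pow_le (by norm_num) ?_
      rw [pow_add]
      exact Nat.mul_le_mul (Nat.pow_log_le_self 2 ha) (Nat.pow_log_le_self 2 hb)
    omega

/-- A group acting faithfully by conjugation on a normalized subgroup `N` has few prime factors. -/
theorem omega_le_of_faithful [Finite G] (N : Subgroup G) [hN : N.Normal] :
    ∀ (k : ℕ) (M H : Subgroup G), M ≤ N → cardFactors (Nat.card N) ≤ cardFactors (Nat.card M) + k →
      (∀ h ∈ H, ∀ m ∈ M, h * m = m * h) → (∀ h ∈ H, (∀ n ∈ N, h * n = n * h) → h = 1) →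
      cardFactors (Nat.card H) ≤ k * Nat.log 2 (Nat.card N - 1) := by
  intro k
  induction k with
  | zero =>
    intro M H hM hk hc hf
    have : M = N := by
      by_contra e
      have := omega_lt (lt_of_le_of_ne hM e); omega
    subst this
    have : H = ⊥ := (eq_bot_iff_forall H).2 fun h hh => hf h hh (hc h hh)
    simp [this]
  | succ k ih =>
    intro M H hM hk hc hf
    by_cases e : M = N
    · subst e
      have : H = ⊥ := (eq_bot_iff_forall H).2 fun h hh => hf h hh (hc h hh)
      simp [this]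
    obtain ⟨x, hxN, hxM⟩ := SetLike.exists_of_lt (lt_of_le_of_ne hM e)
    have hx1 : x ≠ 1 := by rintro rfl; exact hxM M.one_mem
    set H' := H ⊓ centralizer {x} with hH'
    have hlt : M < M ⊔ zpowers x := lt_of_le_of_ne le_sup_left fun e =>
      hxM (e ▸ (le_sup_right (a := M)) (mem_zpowers x))
    have h1 := ih (M ⊔ zpowers x) H' (sup_le hM (by simpa using hxN))
      (by have := omega_lt hlt; omega) (fun h hh m hm => by
        have : M ⊔ zpowers x ≤ centralizer {h} := sup_le
          (fun m hm => mem_centralizer_singleton_iff.2 (hc h hh.1 m hm).symm)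
          (by simpa using mem_centralizer_singleton_iff.2
                (mem_centralizer_singleton_iff.1 hh.2).symm)
        exact (mem_centralizer_singleton_iff.1 (this hm)).symm)
      (fun h hh => hf h hh.1)
    have h2 : (H'.subgroupOf H).index ≤ Nat.card N - 1 := by
      have hc1 : Nat.card {n : N // n ≠ 1} = Nat.card N - 1 := by
        classical
        haveI := Fintype.ofFinite N
        simp [Nat.card_eq_fintype_card, Fintype.card_subtype_compl]
      rw [← hc1, index_eq_card]
      refine Nat.card_le_card_of_injective (fun q => Quotient.liftOn' q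
        (fun h : H => (⟨⟨h * x * (h : G)⁻¹, hN.conj_mem x hxN h⟩, fun e => hx1 (by
          simpa [Subtype.ext_iff, mul_inv_eq_one] using e)⟩ : {n : N // n ≠ 1})) ?_) ?_
      · intro a b hab
        have := (QuotientGroup.leftRel_apply.1 hab).2
        have := mem_centralizer_singleton_iff.1 this
        simp only [coe_subtype, Subgroup.coe_mul, coe_inv] at this
        simp only [Subtype.mk.injEq]
        calc (a : G) * x * (a : G)⁻¹ = a * (x * ((a : G)⁻¹ * b)) * (b : G)⁻¹ := by group
          _ = _ := by rw [← this]; group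
      · intro a b
        induction a using Quotient.inductionOn'
        induction b using Quotient.inductionOn'
        rename_i a b
        intro hab
        simp only [Quotient.liftOn'_mk'', Subtype.mk.injEq] at hab
        refine Quotient.sound' (QuotientGroup.leftRel_apply.2 ⟨(a⁻¹ * b).2, ?_⟩)
        refine mem_centralizer_singleton_iff.2 ?_
        simp only [coe_subtype, Subgroup.coe_mul, coe_inv]
        calc (a : G)⁻¹ * b * x = (a : G)⁻¹ * (b * x * (b : G)⁻¹) * b := by group
          _ = _ := by rw [← hab]; group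
    have h3 := (H'.subgroupOf H).card_mul_index
    have e3 : Nat.card (H'.subgroupOf H) = Nat.card H' :=
      Nat.card_congr (subgroupOfEquivOfLe (inf_le_left : H' ≤ H)).toEquiv
    rw [e3] at h3
    have hi0 : (H'.subgroupOf H).index ≠ 0 := index_ne_zero_of_finite
    rw [← h3, cardFactors_mul Nat.card_pos.ne' hi0]
    have h4 := (omega_le_log hi0).trans (Nat.log_mono_right h2)
    rw [Nat.succ_mul]; omega

theorem omega_le_of_faithful' [Finite G] (N H : Subgroup G) [N.Normal]
    (hf : ∀ h ∈ H, (∀ n ∈ N, h * n = n * h) → h = 1) :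
    cardFactors (Nat.card H) ≤ cardFactors (Nat.card N) * Nat.log 2 (Nat.card N - 1) :=
  omega_le_of_faithful N _ ⊥ H bot_le (by omega) (by simp) hf

theorem num_regular {n : ℕ} (hn : 2 ≤ n) :
    3 * (cardFactors n + cardFactors n * Nat.log 2 (n - 1)) + 4 ≤ 4 * n := by
  by_cases h : n < 16
  · interval_cases n <;> simp [cardFactors_apply, Nat.primeFactorsList_ofNat] <;> norm_num
  · have h1 := omega_le_log (n := n) (by omega)
    have h2 : Nat.log 2 (n - 1) ≤ Nat.log 2 n := Nat.log_mono_right (by omega)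
    have h3 := Nat.pow_log_le_self 2 (show n ≠ 0 by omega)
    have h4 : 4 ≤ Nat.log 2 n := Nat.le_log_of_pow_le (by norm_num) (by omega)
    have key : ∀ L, 4 ≤ L → 3 * (L + L * L) + 4 ≤ 4 * 2 ^ L := by
      intro L hL
      induction L, hL using Nat.le_induction with
      | base => norm_num
      | succ L hL ih => rw [pow_succ]; nlinarith
    have := key _ h4
    have := Nat.mul_le_mul h1 h2
    omega

theorem num_diag {n N : ℕ} (hn : 256 ≤ n) (hN : N ≤ n ^ 2) (h0 : N ≠ 0) :
    3 * (cardFactors N * Nat.log 2 (N - 1)) + 4 ≤ 4 * n := by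
  have h1 := omega_le_log h0
  have h2 : Nat.log 2 (N - 1) ≤ Nat.log 2 N := Nat.log_mono_right (by omega)
  have h3 := Nat.pow_log_le_self 2 (show n ≠ 0 by omega)
  have h4 : 8 ≤ Nat.log 2 n := Nat.le_log_of_pow_le (by norm_num) (by omega)
  have h5 : Nat.log 2 N ≤ 2 * Nat.log 2 n + 1 := by
    have := Nat.lt_pow_succ_log_self (b := 2) (by norm_num) n
    have h : N < 2 ^ (2 * Nat.log 2 n + 2) := by
      calc N ≤ n ^ 2 := hN
        _ < (2 ^ (Nat.log 2 n + 1)) ^ 2 := Nat.pow_lt_pow_left this (by norm_num)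
        _ = _ := by ring
    have := Nat.log_lt_of_lt_pow h0 h
    omega
  have key : ∀ L, 8 ≤ L → 3 * ((2 * L + 1) * (2 * L + 1)) + 4 ≤ 4 * 2 ^ L := by
    intro L hL
    induction L, hL using Nat.le_induction with
    | base => norm_num
    | succ L hL ih => rw [pow_succ]; nlinarith
  have := key _ h4
  have := Nat.mul_le_mul (h1.trans h5) (h2.trans h5)
  omega

end Cfsg.Agent.CLen
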